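import Cfsg.Agent.Lib.OrderDegrees.J1Orders.Data

/-! The certificate for the element orders of the first Janko group, checked by the kernel. -/

set_option autoImplicit false
set_option maxRecDepth 100000

namespace CfsgLib.OrderDegrees.J1Orders

open CfsgLib.SporadicB.J1Cert

theorem chk_conj : (allTo 10 fun k =>
    decide (conjU (k / 2) (k % 2) < 660) && decide (conjM (k / 2) (k % 2) < 660) &&
      decide (cosIdx (k / 2) < 266) &&
      meq (mm (tEl (cosIdx (k / 2))) (hEl (conjU (k / 2) (k % 2))))
        (mm (hEl (conjM (k / 2) (k % 2))) (tEl (cosIdx (k / 2))))) = true := by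
  decide +kernel

theorem chk_walk : (allTo 5 fun r => allTo 660 fun i => walk r 15 i) = true := by decide +kernel

theorem chk_rep : (allTo 5 fun r => allTo 660 fun i => repOk r i) = true := by decide +kernel

theorem chk_cosets : cosIdx 0 = 0 ∧ ∀ k < 4, cosIdx (k + 1) = subRep k := by decide +kernel

theorem chk_witness :
    (meq (powE (mm (hEl 60) (tEl 0)) 2) one && meq (powE (mm (hEl 1) (tEl 1)) 3) one &&
      meq (powE (mm (hEl 3) (tEl 1)) 4) one) = true ∧
    [powM (mm (hEl 60) (tEl 0)) 2, powM (mm (hEl 60) (tEl 0)) 3, powM (mm (hEl 1) (tEl 1)) 2,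
      powM (mm (hEl 1) (tEl 1)) 5, powM (mm (hEl 3) (tEl 1)) 3, powM (mm (hEl 3) (tEl 1)) 5].all
      (fun A => entries A != entries one) = true := by
  decide +kernel

end CfsgLib.OrderDegrees.J1Orders
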