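import Cfsg.Agent.Lib.SporadicB.J1.Basic
import Cfsg.Agent.Lib.OrderDegrees.J1Orders.Check

/-!
The element orders of the first Janko group are 1, 2, 3, 5, 6, 7, 10, 11, 15, 19.
-/

set_option autoImplicit false

namespace CfsgLib.OrderDegrees.J1Orders

open CfsgLib.SporadicB.J1Cert

-- keep the elaborator from evaluating certificate data
attribute [local irreducible] mm meq hEl tEl hMulA hMulB hPar hInv subOrb codes

theorem mulGen_eq (i g : Nat) : mulGen i g = if g == 0 then hMulA i else hMulB i := by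
  cases i <;> rfl

theorem force_eq {α : Type} (x : Nat) (f : Nat → α) : force x f = f x := by cases x <;> rfl

theorem mulIdx_spec : ∀ (n i j : Nat) (hi : i < 660) (hj : j < 660), j < n →
    ∃ h : mulIdx n i j < 660, hU ⟨mulIdx n i j, h⟩ = hU ⟨i, hi⟩ * hU ⟨j, hj⟩ := by
  intro n
  induction n with
  | zero => intro i j _ _ h; omega
  | succ n ih =>
    intro i j hi hj hjn
    by_cases h0 : j = 0
    · subst h0
      refine ⟨by simp [mulIdx, hi], ?_⟩
      have : (⟨0, hj⟩ : Fin 660) = 0 := rfl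
      rw [this, hU_zero, mul_one]
      congr 1
    · obtain ⟨hlt, he⟩ := hPar_spec hj h0
      obtain ⟨hp, hpe⟩ := ih i (hPar j).1 hi (hlt.trans hj) (by omega)
      have hj' : hU ⟨j, hj⟩ = hU ⟨(hPar j).1, hlt.trans hj⟩ * gab (hPar j).2 :=
        (((reps_hU ⟨_, hlt.trans hj⟩).mul (reps_gab _)).eq (reps_hU ⟨j, hj⟩) he).symm
      have hm : mulIdx (n + 1) i j = mulGen (mulIdx n i (hPar j).1) (hPar j).2 := by
        rw [mulIdx, if_neg (by simpa using h0), force_eq]
      have hA := allTo_spec chk_hMulA hp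
      have hB := allTo_spec chk_hMulB hp
      simp only [Bool.and_eq_true, decide_eq_true_eq] at hA hB
      by_cases hg : (hPar j).2 = 0
      · have hv : mulIdx (n + 1) i j = hMulA (mulIdx n i (hPar j).1) := by rw [hm, mulGen_eq, if_pos (by simp [hg])]
        refine ⟨hv ▸ hA.1, ?_⟩
        have e := ((reps_hU ⟨_, hp⟩).mul (reps_gab 0)).eq (reps_hU ⟨_, hA.1⟩) hA.2
        rw [hj', ← mul_assoc, ← hpe, hg, e]
        congr 1
        exact Fin.ext hv
      · have hv : mulIdx (n + 1) i j = hMulB (mulIdx n i (hPar j).1) := by rw [hm, mulGen_eq, if_neg (by simpa using hg)]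
        refine ⟨hv ▸ hB.1, ?_⟩
        have hg1 : gab (hPar j).2 = gab 1 := mat_inj (by
          have e : gAB (hPar j).2 = gAB 1 := by simp [gAB, hg]
          rw [reps_gab (hPar j).2, reps_gab 1, e])
        have e := ((reps_hU ⟨_, hp⟩).mul (reps_gab 1)).eq (reps_hU ⟨_, hB.1⟩) hB.2
        rw [hj', ← mul_assoc, ← hpe, hg1, e]
        congr 1
        exact Fin.ext hv

theorem hU_hInv {u : Nat} (hu : u < 660) :
    ∃ h : hInv u < 660, hU ⟨hInv u, h⟩ = (hU ⟨u, hu⟩)⁻¹ := by
  have := allTo_spec chk_hInv hu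
  simp only [Bool.and_eq_true, decide_eq_true_eq] at this
  exact ⟨this.1, (inv_eq_of_mul_eq_one_right
    (((reps_hU ⟨u, hu⟩).mul (reps_hU ⟨_, this.1⟩)).eq reps_one this.2)).symm⟩

theorem powE_pow {A : M7} {g : J} (h : Reps A g) (c : Nat) (hc : 2 ≤ c) (hc' : c < 8) :
    Reps (powE A c) (g ^ expo c) := by
  have hs : ∀ {B : M7} {x : J}, Reps B x → Reps (sq B) (x * x) := fun hB => hB.mul hB
  interval_cases c
  · have := hs ((hs h).mul h)
    convert this using 1
    · rfl
    · simp [expo, pow_succ, mul_assoc]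
  · have := hs ((hs (hs h)).mul h)
    convert this using 1
    · rfl
    · simp [expo, pow_succ, mul_assoc]
  · have := (hs ((hs (hs h)).mul h)).mul ((hs (hs h)).mul h)
    convert this using 1
    · rfl
    · simp [expo, pow_succ, mul_assoc]
  · have := (hs ((hs h).mul h)).mul h
    convert this using 1
    · rfl
    · simp [expo, pow_succ, mul_assoc]
  · have := (hs ((hs (hs h)).mul h)).mul h
    convert this using 1
    · rfl
    · simp [expo, pow_succ, mul_assoc]
  · have := (hs (hs (hs (hs h)))).mul ((hs h).mul h)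
    convert this using 1
    · rfl
    · simp [expo, pow_succ, mul_assoc]

/-- `g` has order dividing one of the six maximal orders. -/
def Good (g : J) : Prop := ∃ e ∈ [6, 10, 15, 7, 11, 19], g ^ e = 1

theorem Good.conj {g : J} (h : Good g) (k : J) : Good (k * g * k⁻¹) := by
  obtain ⟨e, he, h1⟩ := h
  exact ⟨e, he, by rw [conj_pow, h1, mul_one, mul_inv_cancel]⟩

theorem good_coset {r : Nat} (hr : r < 5) {i : Nat} (hi : i < 660) (hc : cosIdx r < 266) :
    Good (hU ⟨i, hi⟩ * tU ⟨cosIdx r, hc⟩) := by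
  have hrep : ∀ i (hi : i < 660), 2 ≤ code r i → Good (hU ⟨i, hi⟩ * tU ⟨cosIdx r, hc⟩) := by
    intro i hi h2
    have h := allTo_spec (allTo_spec chk_rep hr) hi
    simp only [repOk, Bool.or_eq_true, decide_eq_true_eq] at h
    have h8 : code r i < 8 := Nat.mod_lt _ (by norm_num)
    refine ⟨expo (code r i), ?_, (powE_pow ((reps_hU ⟨i, hi⟩).mul (reps_tU ⟨_, hc⟩)) _ h2 h8).eq reps_one
      (h.resolve_left (by omega))⟩
    generalize hk : code r i = k at h2 h8
    interval_cases k <;> simp [expo]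
  have key : ∀ n i (hi : i < 660), walk r n i = true → Good (hU ⟨i, hi⟩ * tU ⟨cosIdx r, hc⟩) := by
    intro n
    induction n with
    | zero => intro i hi h; exact hrep i hi (by simpa [walk] using h)
    | succ n ih =>
      intro i hi h
      simp only [walk, force_eq, Bool.or_eq_true, decide_eq_true_eq] at h
      rcases h with h | h
      · exact hrep i hi h
      by_cases h2 : 2 ≤ code r i
      · exact hrep i hi h2
      generalize hg : code r i = g at h h2
      have hk := allTo_spec chk_conj (show 2 * r + g < 10 by omega)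
      rw [show (2 * r + g) / 2 = r by omega, show (2 * r + g) % 2 = g by omega] at hk
      simp only [Bool.and_eq_true, decide_eq_true_eq] at hk
      obtain ⟨⟨⟨hu, hm⟩, -⟩, he⟩ := hk
      obtain ⟨hu', huinv⟩ := hU_hInv hu
      obtain ⟨hp, hpe⟩ := mulIdx_spec 660 _ i hu' hi hi
      obtain ⟨hq, hqe⟩ := mulIdx_spec 660 _ _ hp hm hm
      have hmv : moveIdx r g i = mulIdx 660 (mulIdx 660 (hInv (conjU r g)) i) (conjM r g) := by
        rw [moveIdx, force_eq]
      rw [hmv] at h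
      have hG := (ih _ hq h).conj (hU ⟨_, hu⟩)
      have hcomm : tU ⟨_, hc⟩ * hU ⟨_, hu⟩ = hU ⟨_, hm⟩ * tU ⟨_, hc⟩ :=
        ((reps_tU ⟨_, hc⟩).mul (reps_hU ⟨_, hu⟩)).eq ((reps_hU ⟨_, hm⟩).mul (reps_tU ⟨_, hc⟩)) he
      rw [hqe, hpe, huinv] at hG
      convert hG using 1
      rw [mul_assoc ((hU ⟨_, hu⟩)⁻¹ * _) (hU ⟨_, hm⟩), ← hcomm]
      group
  exact key _ i hi (allTo_spec (allTo_spec chk_walk hr) hi)

/-- Every element has order dividing 6, 10, 15, 7, 11 or 19. -/
theorem good (g : J) : Good g := by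
  obtain ⟨i, j, rfl⟩ := cover g
  by_cases h0 : (j : Nat) = 0
  · have hc : cosIdx 0 < 266 := by rw [chk_cosets.1]; norm_num
    convert good_coset (by norm_num : 0 < 5) i.2 hc using 2
    congr 1
    exact Fin.ext (h0.trans chk_cosets.1.symm)
  have hs := allTo_spec chk_subOrb j.2
  simp only [beq_eq_false_iff_ne.mpr h0, Bool.false_or, Bool.and_eq_true, decide_eq_true_eq] at hs
  obtain ⟨⟨⟨h1, h2⟩, hr⟩, he⟩ := hs
  have hsub : cosIdx ((subOrb j).2.2 + 1) = subRep (subOrb j).2.2 := chk_cosets.2 _ hr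
  have hc : cosIdx ((subOrb j).2.2 + 1) < 266 := by
    have hm := allTo_spec chk_max hr
    simp only [Bool.and_eq_true, decide_eq_true_eq] at hm
    rw [hsub]; exact hm.1.1.2
  have e : tU j * hU ⟨_, h1⟩ = hU ⟨_, h2⟩ * tU ⟨_, hc⟩ := by
    have hlt : subRep (subOrb j).2.2 < 266 := hsub ▸ hc
    have := ((reps_tU j).mul (reps_hU ⟨_, h1⟩)).eq
      (reps_elem (x := ((subOrb j).2.1, subRep (subOrb j).2.2)) h2 hlt) he
    rw [this]
    congr 2
  obtain ⟨k, hk⟩ : (hU ⟨_, h1⟩)⁻¹ * hU i * hU ⟨_, h2⟩ ∈ H :=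
    H.mul_mem (H.mul_mem (H.inv_mem (hU_mem _)) (hU_mem _)) (hU_mem _)
  have hG := (good_coset (r := (subOrb j).2.2 + 1) (by omega) k.2 hc).conj (hU ⟨_, h1⟩)
  rw [hk, mul_assoc ((hU ⟨_, h1⟩)⁻¹ * hU i) (hU ⟨_, h2⟩), ← e] at hG
  convert hG using 1
  group

theorem orderOf_mem (g : J) : orderOf g ∈ ({1, 2, 3, 5, 6, 7, 10, 11, 15, 19} : Finset ℕ) := by
  obtain ⟨e, he, h⟩ := good g
  have hd := orderOf_dvd_of_pow_eq_one h
  simp only [List.mem_cons, List.not_mem_nil, or_false] at he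
  have hmem := Nat.mem_divisors.mpr ⟨hd, by omega⟩
  rcases he with rfl | rfl | rfl | rfl | rfl | rfl <;>
    · revert hmem; generalize orderOf g = d
      simp only [show Nat.divisors 6 = {1, 2, 3, 6} from rfl, show Nat.divisors 10 = {1, 2, 5, 10} from rfl,
        show Nat.divisors 15 = {1, 3, 5, 15} from rfl, show Nat.divisors 7 = {1, 7} from rfl,
        show Nat.divisors 11 = {1, 11} from rfl, show Nat.divisors 19 = {1, 19} from rfl,
        Finset.mem_insert, Finset.mem_singleton]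
      omega

theorem exists_orderOf_prime {A : M7} {g : J} {p : ℕ} (hp : p.Prime) (h : Reps A g)
    (he : meq (powM A p) one = true) (hne : entries A ≠ entries one) : orderOf g = p := by
  have := Fact.mk hp
  exact orderOf_eq_prime ((pow_reps h p).eq reps_one he) (not_one_of h (by rw [← toMat_one]; exact toMat_ne hne))

theorem exists_orderOf : ∀ n ∈ [6, 10, 15, 7, 11, 19], ∃ g : J, orderOf g = n := by
  have hc := chk_orders
  simp only [Bool.and_eq_true, decide_eq_true_eq] at hc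
  obtain ⟨⟨⟨⟨⟨⟨⟨⟨⟨⟨⟨⟨⟨⟨⟨⟨⟨⟨⟨⟨⟨⟨⟨⟨⟨hlt19a, hlt19b⟩, hlt11⟩, hlt3⟩, h19⟩, -⟩, h11⟩, -⟩, h3⟩, -⟩, h7⟩, -⟩, h5⟩, -⟩, -⟩, -⟩, -⟩, -⟩, -⟩, -⟩, -⟩, -⟩, -⟩, -⟩, -⟩, -⟩ := hc
  obtain ⟨n19, n11, n3, n7, n5⟩ := nontrivial_els
  obtain ⟨hw, hne⟩ := chk_witness
  simp only [Bool.and_eq_true] at hw
  simp only [List.all_cons, List.all_nil, Bool.and_true, Bool.and_eq_true, bne_iff_ne] at hne
  have two : ∀ {A : M7} {g : J} (p q : ℕ), p.Prime → q.Prime → Reps A g → g ^ (p * q) = 1 →
      entries (powM A p) ≠ entries one → entries (powM A q) ≠ entries one → orderOf g = p * q := by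
    intro A g p q hp hq h h1 hnp hnq
    apply orderOf_eq_of_pow_and_pow_div_prime (Nat.mul_pos hp.pos hq.pos) h1
    intro r hr hrd
    rcases (hr.dvd_mul).mp hrd with hd | hd
    · rw [(Nat.prime_dvd_prime_iff_eq hr hp).mp hd, Nat.mul_div_cancel_left _ hp.pos]
      exact not_one_of (pow_reps h q) (by rw [← toMat_one]; exact toMat_ne hnq)
    · rw [(Nat.prime_dvd_prime_iff_eq hr hq).mp hd, Nat.mul_div_cancel _ hq.pos]
      exact not_one_of (pow_reps h p) (by rw [← toMat_one]; exact toMat_ne hnp)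
  intro n hn
  simp only [List.mem_cons, List.not_mem_nil, or_false] at hn
  rcases hn with rfl | rfl | rfl | rfl | rfl | rfl
  · have h := (reps_hU ⟨60, by norm_num⟩).mul (reps_tU ⟨0, by norm_num⟩)
    exact ⟨_, two 2 3 Nat.prime_two Nat.prime_three h
      ((powE_pow h 2 le_rfl (by norm_num)).eq reps_one hw.1.1) hne.1 hne.2.1⟩
  · have h := (reps_hU ⟨1, by norm_num⟩).mul (reps_tU ⟨1, by norm_num⟩)
    exact ⟨_, two 2 5 Nat.prime_two (by norm_num) h
      ((powE_pow h 3 (by norm_num) (by norm_num)).eq reps_one hw.1.2) hne.2.2.1 hne.2.2.2.1⟩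
  · have h := (reps_hU ⟨3, by norm_num⟩).mul (reps_tU ⟨1, by norm_num⟩)
    exact ⟨_, two 3 5 Nat.prime_three (by norm_num) h
      ((powE_pow h 4 (by norm_num) (by norm_num)).eq reps_one hw.2) hne.2.2.2.2.1 hne.2.2.2.2.2⟩
  · exact ⟨_, exists_orderOf_prime (by norm_num) reps_x h7 n7⟩
  · exact ⟨_, exists_orderOf_prime (by norm_num) (reps_hU ⟨el11, hlt11⟩) h11 n11⟩
  · exact ⟨_, exists_orderOf_prime (by norm_num) (reps_elem hlt19a hlt19b) h19 n19⟩

end CfsgLib.OrderDegrees.J1Orders
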